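import Cfsg.Agent.R08.FiTwentyFour
import Cfsg.Agent.S2153
import Cfsg.Agent.R01.Assembly
import Cfsg.Agent.H999.IF.EngB
import Cfsg.Agent.H209.IF.Kill

/-!
# S5719: `Fi24'`, a product of two commuting transpositions in `A` (helper672)

* `fi22_top` : `Fi22` has no proper subgroup of index less than 672 (Cooperstein's bound for `PSU 6 2`);
* `fi23_top` : the same for `C(a) ∩ G' = Fi23` and index at most 9;
* `twoA` : `ab ∈ A`, then `C(a,b) ≤ A`, `C(a) ≤ A`, `|G' : A| ≤ 87`.
-/

set_option autoImplicit false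
set_option maxRecDepth 10000

namespace Cfsg.Agent.H672.IF.Fi24A

open Cfsg Cfsg.Spor Subgroup Cfsg.Agent.R01 Cfsg.Agent.R01.Lifts Cfsg.Agent.R08.FiTwentyFour Cfsg.Agent.H209.Fxy
open scoped commutatorElement

/-- A subgroup of a perfect group covering the quotient by a central subgroup. -/
theorem perf_top {C U : Type*} [Group C] [Group U] {π : C →* U} {z : C} (E : Ext π z) (hp : commutator C = ⊤)
    {K : Subgroup C} (hK : K.map π = ⊤) : K = ⊤ := by
  rw [eq_top_iff, ← hp, commutator_def, Subgroup.commutator_le]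
  have key : ∀ g : C, ∃ k ∈ K, ∃ w : C, g = k * w ∧ ∀ c, c * w = w * c := by
    intro g
    have h1 : π g ∈ K.map π := by rw [hK]; trivial
    obtain ⟨k, hk, hkg⟩ := h1
    rcases E.map_eq.1 hkg.symm with h2 | h2
    · exact ⟨k, hk, 1, by rw [h2, mul_one], fun c => by rw [mul_one, one_mul]⟩
    · exact ⟨k, hk, z, h2, E.comm⟩
  intro g₁ _ g₂ _
  obtain ⟨k₁, hk₁, w₁, rfl, h₁⟩ := key g₁
  obtain ⟨k₂, hk₂, w₂, rfl, h₂⟩ := key g₂
  have h3 : ⁅k₁ * w₁, k₂ * w₂⁆ = ⁅k₁, k₂⁆ := by
    rw [commutatorElement_def, commutatorElement_def, mul_inv_rev, mul_inv_rev]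
    calc k₁ * w₁ * (k₂ * w₂) * (w₁⁻¹ * k₁⁻¹) * (w₂⁻¹ * k₂⁻¹)
        = k₁ * (w₁ * (k₂ * w₂)) * (w₁⁻¹ * k₁⁻¹) * (w₂⁻¹ * k₂⁻¹) := by group
      _ = k₁ * ((k₂ * w₂) * w₁) * (w₁⁻¹ * k₁⁻¹) * (w₂⁻¹ * k₂⁻¹) := by rw [h₁]
      _ = k₁ * k₂ * (w₂ * k₁⁻¹) * (w₂⁻¹ * k₂⁻¹) := by group
      _ = k₁ * k₂ * (k₁⁻¹ * w₂) * (w₂⁻¹ * k₂⁻¹) := by rw [h₂]
      _ = k₁ * k₂ * k₁⁻¹ * k₂⁻¹ := by group
  rw [h3]
  exact (mul_mem (mul_mem (mul_mem hk₁ hk₂) (inv_mem hk₁)) (inv_mem hk₂))

theorem psu_top {F : Type*} [Field F] [Fintype F] (hF : Fintype.card F = 2 ^ 2) {K : Subgroup (PSU 6 F 2)}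
    (hK : K.index < 672) : K = ⊤ := by
  by_contra hne
  have h1 := (Cfsg.Agent.S2153.result (F := F) (by rw [hF]; norm_num) 6 (by norm_num) le_rfl).1 K hne
  norm_num at h1
  omega

/-- **`Fi22` has no proper subgroup of index `< 672`.** -/
theorem fi22_top {K : Subgroup Fi22} (hK : K.index < 672) : K = ⊤ := by
  have hfin : Finite Fi22 := Fi22Facts.finite
  have key : ∀ d ∈ Fi22Facts.T, d ∈ K := by
    intro d hd
    obtain ⟨π, lift, L, -⟩ := Fi22Facts.loc d hd
    have h1 : K.subgroupOf (centralizer ({d} : Set Fi22)) = ⊤ := by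
      apply perf_top L.ext L.perf
      apply psu_top Cfsg.Agent.Fischer.Unit22.hF
      have h2 : ((K.subgroupOf (centralizer ({d} : Set Fi22))).map π).index ∣ (K.subgroupOf (centralizer ({d} : Set Fi22))).index :=
        index_map_dvd _ L.ext.surj
      have h3 : (K.subgroupOf (centralizer ({d} : Set Fi22))).index ≤ K.index := by
        have h4 := relIndex_le_of_le_right (H := K) (K := centralizer ({d} : Set Fi22)) (L := ⊤) le_top
          (by rw [relIndex_top_right]; exact index_ne_zero_of_finite)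
        rw [relIndex_top_right] at h4
        exact h4
      have h5 := Nat.le_of_dvd (Nat.pos_of_ne_zero index_ne_zero_of_finite) h2
      omega
    exact subgroupOf_eq_top.1 h1 (mem_centralizer_singleton_iff.2 rfl)
  rw [eq_top_iff, ← PresentedGroup.closure_range_of, closure_le]
  rintro _ ⟨x, rfl⟩
  exact key _ (Fi22Facts.gen_mem x)

/-- A simple group of order `> 9!` has no proper subgroup of index `≤ 9`. -/
theorem simple_top {S : Type*} [Group S] [Finite S] [IsSimpleGroup S] (hc : 362880 < Nat.card S) {K : Subgroup S}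
    (hK : K.index ≤ 9) : K = ⊤ := by
  rcases (inferInstance : IsSimpleGroup S).eq_bot_or_eq_top_of_normal K.normalCore inferInstance with h1 | h1
  · exfalso
    rw [Subgroup.normalCore_eq_ker] at h1
    have h2 : Function.Injective (MulAction.toPermHom S (S ⧸ K)) := (MonoidHom.ker_eq_bot_iff _).1 h1
    have h3 := Nat.card_le_card_of_injective _ h2
    rw [Nat.card_perm, ← Subgroup.index_eq_card] at h3
    have h4 := Nat.factorial_le hK
    have h5 : Nat.factorial 9 = 362880 := by decide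
    omega
  · rw [eq_top_iff, ← h1]
    exact K.normalCore_le

/-- `C(a) ∩ G'` -/
def M (a : Fi24) : Subgroup Fi24 := commutator Fi24 ⊓ centralizer {a}

theorem mem_M {a x : Fi24} : x ∈ M a ↔ x ∈ commutator Fi24 ∧ x * a = a * x := by
  rw [M, mem_inf, mem_centralizer_singleton_iff]

theorem mem_C {a b x : Fi24} : x ∈ Cab a b ↔ x ∈ commutator Fi24 ∧ x * a = a * x ∧ x * b = b * x := by
  rw [mem_Cab, ← mem_commutator_iff]

theorem M_map (g a : Fi24) : M (g * a * g⁻¹) = (M a).map (MulAut.conj g).toMonoidHom := by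
  ext x
  constructor
  · intro hx
    obtain ⟨h1, h2⟩ := mem_M.1 hx
    refine ⟨g⁻¹ * x * g, mem_M.2 ⟨?_, ?_⟩, ?_⟩
    · have h3 := (inferInstance : (commutator Fi24).Normal).conj_mem x h1 g⁻¹
      rwa [inv_inv] at h3
    · calc g⁻¹ * x * g * a = g⁻¹ * (x * (g * a * g⁻¹)) * g := by group
        _ = g⁻¹ * (g * a * g⁻¹ * x) * g := by rw [h2]
        _ = a * (g⁻¹ * x * g) := by group
    · change g * (g⁻¹ * x * g) * g⁻¹ = x
      group
  · rintro ⟨y, hy, rfl⟩
    obtain ⟨h1, h2⟩ := mem_M.1 hy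
    refine mem_M.2 ⟨(inferInstance : (commutator Fi24).Normal).conj_mem y h1 g, ?_⟩
    change g * y * g⁻¹ * (g * a * g⁻¹) = g * a * g⁻¹ * (g * y * g⁻¹)
    calc g * y * g⁻¹ * (g * a * g⁻¹) = g * (y * a) * g⁻¹ := by group
      _ = g * (a * y) * g⁻¹ := by rw [h2]
      _ = _ := by group

theorem simple_M {a : Fi24} (ha : a ∈ L) : IsSimpleGroup (M a) := by
  have hs : IsSimpleGroup Fi23 := Cfsg.Agent.S1697.result.1
  obtain ⟨g, rfl⟩ := isConj_iff.1 (show IsConj (Cfsg.Agent.Fischer.Fi24Class.gen .l) a from ha)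
  have h1 : M (Cfsg.Agent.Fischer.Fi24Class.gen .l) = facts.phi.range := by
    ext x
    rw [mem_M, MonoidHom.mem_range, facts.mem_range_iff, mem_commutator_iff, and_comm]
  have e1 : Fi23 ≃* M (Cfsg.Agent.Fischer.Fi24Class.gen .l) :=
    (MonoidHom.ofInjective facts.phi_injective).trans (MulEquiv.subgroupCongr h1.symm)
  have e2 : M (Cfsg.Agent.Fischer.Fi24Class.gen .l) ≃* M (g * Cfsg.Agent.Fischer.Fi24Class.gen .l * g⁻¹) :=
    ((MulAut.conj g).subgroupMap _).trans (MulEquiv.subgroupCongr (M_map g _).symm)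
  exact (e1.trans e2).symm.isSimpleGroup

theorem Cab_le_M {a b : Fi24} : Cab a b ≤ M a := fun _ hx => mem_M.2 ⟨(mem_C.1 hx).1, (mem_C.1 hx).2.1⟩

theorem Cab_comm (a b : Fi24) : Cab a b = Cab b a := by
  ext x
  rw [mem_C, mem_C, and_comm (a := x * a = a * x)]

/-- the number of conjugates -/
theorem orb_le {G : Type*} [Group G] {H : Subgroup G} {x : G} {D : Set G} (hD : D.Finite)
    (h : ∀ g ∈ H, g * x * g⁻¹ ∈ D) : (centralizer ({x} : Set G)).relIndex H ≤ D.ncard := by
  have := hD.to_subtype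
  rw [relIndex, index_eq_card, ← Nat.card_coe_set_eq]
  refine Nat.card_le_card_of_injective
    (fun c : H ⧸ (centralizer ({x} : Set G)).subgroupOf H => Quotient.liftOn' c
      (fun g : H => (⟨(g : G) * x * (g : G)⁻¹, h g g.2⟩ : D)) ?_) ?_
  · intro g g' hg
    rw [QuotientGroup.leftRel_apply] at hg
    have h1 : ((g : G)⁻¹ * g') * x = x * ((g : G)⁻¹ * g') := mem_centralizer_singleton_iff.1 hg
    apply Subtype.ext
    change (g : G) * x * (g : G)⁻¹ = (g' : G) * x * (g' : G)⁻¹
    calc (g : G) * x * (g : G)⁻¹ = (g : G) * (x * ((g : G)⁻¹ * g')) * (g' : G)⁻¹ := by group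
      _ = (g : G) * (((g : G)⁻¹ * g') * x) * (g' : G)⁻¹ := by rw [h1]
      _ = _ := by group
  · intro c c' hcc
    induction c using QuotientGroup.induction_on with
    | H g =>
      induction c' using QuotientGroup.induction_on with
      | H g' =>
        have h1 : (g : G) * x * (g : G)⁻¹ = (g' : G) * x * (g' : G)⁻¹ := congrArg Subtype.val hcc
        apply QuotientGroup.eq.2
        change ((g⁻¹ * g' : H) : G) ∈ centralizer ({x} : Set G)
        rw [mem_centralizer_singleton_iff]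
        change (g : G)⁻¹ * (g' : G) * x = x * ((g : G)⁻¹ * (g' : G))
        calc (g : G)⁻¹ * (g' : G) * x = (g : G)⁻¹ * ((g' : G) * x * (g' : G)⁻¹) * g' := by group
          _ = (g : G)⁻¹ * ((g : G) * x * (g : G)⁻¹) * g' := by rw [h1]
          _ = _ := by group

instance : Finite Fi24 := finite_Fi24

theorem rel_ne (H K : Subgroup Fi24) : H.relIndex K ≠ 0 := index_ne_zero_of_finite

theorem relIndex_M_le {a x : Fi24} (ha : a ∈ L) (hx : x ∈ L) (hne : x ≠ a) (hc : Commute x a) :
    (Cab a x).relIndex (M a) ≤ 31671 := by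
  have h1 : Cab a x = M a ⊓ centralizer {x} := by
    ext y
    rw [mem_C, mem_inf, mem_M, mem_centralizer_singleton_iff, and_assoc]
  rw [h1, inf_relIndex_left, ← ncard_commuting ha]
  apply orb_le (Set.toFinite _)
  intro g hg
  obtain ⟨-, h2⟩ := mem_M.1 hg
  refine ⟨conj hx g, ?_, ?_⟩
  · intro h3
    apply hne
    have h4 : x = g⁻¹ * (g * x * g⁻¹) * g := by group
    rw [h4, h3, mul_assoc, ← h2, inv_mul_cancel_left]
  · have h4 : g⁻¹ * a = a * g⁻¹ := ((show Commute g a from h2).inv_left).eq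
    change g * x * g⁻¹ * a = a * (g * x * g⁻¹)
    calc g * x * g⁻¹ * a = g * x * (g⁻¹ * a) := by group
      _ = g * (x * a) * g⁻¹ := by rw [h4]; group
      _ = g * a * x * g⁻¹ := by rw [hc.eq]; group
      _ = a * (g * x * g⁻¹) := by rw [h2]; group

theorem relIndex_comm_le {a : Fi24} (ha : a ∈ L) : (M a).relIndex (commutator Fi24) ≤ 306936 := by
  rw [M, inf_relIndex_left, ← ncard_L]
  exact orb_le (Set.toFinite _) fun g _ => conj ha g

theorem card_Cab {a b : Fi24} (ha : a ∈ L) (hb : b ∈ L) (hne : a ≠ b) (hab : Commute a b) :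
    Nat.card (Cab a b) = 129123503308800 := by
  obtain ⟨π, z, hz, hL⟩ := lifted ha hb hne hab
  rw [Assembly.card_ext hL.ext, Fi22Facts.card]

/-- `|C(a,b) : C(a,b,x)|` -/
theorem le_relIndex {a b x : Fi24} (ha : a ∈ L) (hb : b ∈ L) (hne : a ≠ b) (hab : Commute a b) (hx : x ∈ L)
    (hxa : x ≠ a) (hxb : x ≠ b) (hca : Commute x a) (hcb : Commute x b) : 3510 ≤ (Cab a x).relIndex (Cab a b) := by
  obtain ⟨π, z, hz, hL⟩ := lifted ha hb hne hab
  set y : Cab a b := ⟨a * x, mul_mem_Cab ha hx hab hca hcb⟩ with hy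
  have hd : π y ∈ Fi22Facts.T := hL.map y ⟨x, hx, hxa, hxb, hca, hcb, rfl⟩
  obtain ⟨π', lift, L', -⟩ := Fi22Facts.loc _ hd
  have h1 := (centralizer ({π y} : Set Fi22)).card_mul_index
  rw [Assembly.card_centralizer Cfsg.Agent.Fischer.Unit22.hF L'.ext, Fi22Facts.card] at h1
  have h2 : (centralizer ({π y} : Set Fi22)).index = 3510 := by omega
  have h3 : ((Cab a x).subgroupOf (Cab a b)).map π ≤ centralizer ({π y} : Set Fi22) := by
    rintro _ ⟨k, hk, rfl⟩
    rw [mem_centralizer_singleton_iff, ← map_mul, ← map_mul]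
    congr 1
    apply Subtype.ext
    obtain ⟨-, h4, h5⟩ := mem_C.1 (show (k : Fi24) ∈ Cab a x from hk)
    change (k : Fi24) * (a * x) = a * x * (k : Fi24)
    rw [← mul_assoc, h4, mul_assoc, h5, mul_assoc]
  have h4 := index_map_dvd ((Cab a x).subgroupOf (Cab a b)) hL.ext.surj
  have h5 := (index_dvd_of_le h3).trans h4
  rw [h2] at h5
  have hfin : Finite (Cab a b) := Finite.of_injective _ (Cab a b).subtype_injective
  exact Nat.le_of_dvd (Nat.pos_of_ne_zero index_ne_zero_of_finite) h5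

theorem exists_third {a b : Fi24} (ha : a ∈ L) (hb : b ∈ L) (hne : a ≠ b) (hab : Commute a b) :
    ∃ x ∈ L, x ≠ a ∧ x ≠ b ∧ Commute x a ∧ Commute x b := by
  obtain ⟨π, -, -, -, h, -⟩ := loc ha hb hne hab
  obtain ⟨c, hc, h1, h2, h3, h4, -⟩ := h _ (Fi22Facts.gen_mem .a)
  exact ⟨c, hc, h1, h2, h3, h4⟩

/-- **The kill.** -/
theorem false_of {A : Subgroup Fi24} (hA : A ≤ commutator Fi24) (hbig : 729 < A.relIndex (commutator Fi24))
    (hE : ∀ a ∈ L, ∀ b ∈ L, a ≠ b → Commute a b → a * b ∈ A → A.relIndex (Cab a b) < 672)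
    {a b : Fi24} (ha : a ∈ L) (hb : b ∈ L) (hne : a ≠ b) (hab : Commute a b) (habA : a * b ∈ A) : False := by
  have hC : ∀ a ∈ L, ∀ b ∈ L, a ≠ b → Commute a b → a * b ∈ A → Cab a b ≤ A := by
    intro a ha b hb hne hab h
    obtain ⟨π, z, hz, hL⟩ := lifted ha hb hne hab
    have hfin : Finite (Cab a b) := Finite.of_injective _ (Cab a b).subtype_injective
    apply subgroupOf_eq_top.1
    apply perf_top hL.ext (perfect ha hb hne hab)
    apply fi22_top
    have h2 := index_map_dvd (A.subgroupOf (Cab a b)) hL.ext.surj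
    have h3 := Nat.le_of_dvd (Nat.pos_of_ne_zero index_ne_zero_of_finite) h2
    have h4 : (A.subgroupOf (Cab a b)).index < 672 := hE a ha b hb hne hab h
    omega
  obtain ⟨x, hx, hxa, hxb, hca, hcb⟩ := exists_third ha hb hne hab
  have h1 : Cab a b ≤ A := hC a ha b hb hne hab habA
  have h2 : a * x ∈ A := h1 (mul_mem_Cab ha hx hab hca hcb)
  have h3 : b * x ∈ A := by
    rw [Cab_comm] at h1
    exact h1 (mul_mem_Cab hb hx hab.symm hcb hca)
  have h4 : Cab a x ≤ A := hC a ha x hx hxa.symm hca.symm h2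
  have h5 : Cab b x ≤ A := hC b hb x hx hxb.symm hcb.symm h3
  -- `C(a) ≤ A`
  have h6 : M a ≤ A := by
    have h7 : 3510 ≤ (Cab a x).relIndex (A ⊓ M a) := by
      refine le_trans (le_relIndex ha hb hne hab hx hxa hxb hca hcb) (relIndex_le_of_le_right (le_inf h1 Cab_le_M) ?_)
      exact rel_ne _ _
    have h8 := relIndex_mul_relIndex (Cab a x) (A ⊓ M a) (M a) (le_inf h4 Cab_le_M) inf_le_right
    have h9 := relIndex_M_le ha hx hxa hca
    have h10 : (A ⊓ M a).relIndex (M a) ≤ 9 := by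
      by_contra hcon
      push Not at hcon
      have := Nat.mul_le_mul h7 hcon
      omega
    rw [inf_relIndex_right] at h10
    have hs := simple_M ha
    have hcard : 362880 < Nat.card (M a) := by
      have := Subgroup.card_le_of_le (Cab_le_M (a := a) (b := b))
      rw [card_Cab ha hb hne hab] at this
      omega
    have hfin : Finite (M a) := Finite.of_injective _ (M a).subtype_injective
    exact subgroupOf_eq_top.1 (simple_top hcard h10)
  -- the index of `A`
  have h7 : 3510 ≤ (M a).relIndex A := by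
    have h8 : (M a).relIndex (Cab b x) = (Cab b a).relIndex (Cab b x) := by
      rw [← inf_relIndex_right, ← inf_relIndex_right (Cab b a)]
      congr 1
      ext y
      constructor
      · rintro ⟨k1, k2⟩
        exact ⟨mem_C.2 ⟨(mem_M.1 k1).1, (mem_C.1 k2).2.1, (mem_M.1 k1).2⟩, k2⟩
      · rintro ⟨k1, k2⟩
        exact ⟨mem_M.2 ⟨(mem_C.1 k1).1, (mem_C.1 k1).2.2⟩, k2⟩
    have h9 := le_relIndex hb hx hxb.symm hcb.symm ha hne hxa.symm hab hca.symm
    rw [← h8] at h9
    exact h9.trans (relIndex_le_of_le_right h5 (rel_ne _ _))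
  have h8 := relIndex_mul_relIndex (M a) A (commutator Fi24) h6 hA
  have h9 := relIndex_comm_le ha
  have h10 := Nat.mul_le_mul h7 hbig
  omega

theorem map_le (A : Subgroup Spor.Fi24') : A.map (commutator Fi24).subtype ≤ commutator Fi24 := by
  rintro _ ⟨x, -, rfl⟩
  exact x.2

theorem map_subgroupOf (A : Subgroup Spor.Fi24') :
    (A.map (commutator Fi24).subtype).subgroupOf (commutator Fi24) = A :=
  Subgroup.comap_map_eq_self_of_injective (commutator Fi24).subtype_injective A

/-- **The case of a product of two commuting transpositions.** -/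
theorem twoA {A : Subgroup Spor.Fi24'} {Γ : Subgroup (MulAut Spor.Fi24')} (h : IF A Γ) {a b : Fi24} (ha : a ∈ L)
    (hb : b ∈ L) (hne : a ≠ b) (hab : Commute a b) {t : Spor.Fi24'} (ht : (t : Fi24) = a * b) (htA : t ∈ A) : False := by
  have hs : IsSimpleGroup Spor.Fi24' := isFi24'.1
  have hfin : Finite Spor.Fi24' := Finite.of_injective _ (commutator Fi24).subtype_injective
  have hna : ∃ a b : Spor.Fi24', a * b ≠ b * a := by
    by_contra hcon
    push Not at hcon
    have hn : A.Normal := ⟨fun n hn g => by rwa [hcon g n, mul_inv_cancel_right]⟩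
    rcases hn.eq_bot_or_eq_top with h1 | h1
    · exact h.ne_bot h1
    · exact h.ne_top h1
  refine false_of (map_le A) ?_ ?_ ha hb hne hab ⟨t, htA, ht⟩
  · rw [relIndex, map_subgroupOf]
    exact h.big
  · rintro a ha b hb hne hab ⟨t, htA, ht⟩
    have ht' : (t : Fi24) = a * b := ht
    have h2 : orderOf t = 2 := by
      apply orderOf_eq_prime
      · apply Subtype.ext
        change (t : Fi24) ^ 2 = 1
        rw [ht', pow_two]
        calc a * b * (a * b) = a * (b * a) * b := by group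
          _ = (a * a) * (b * b) := by rw [← hab.eq]; group
          _ = 1 := by rw [sq ha, sq hb, mul_one]
      · intro h1
        apply hne
        have h3 : a * b = 1 := by rw [← ht', h1]; rfl
        calc a = a * (b * b) := by rw [sq hb, mul_one]
          _ = b := by rw [← mul_assoc, h3, one_mul]
    have hle : (Cab a b).subgroupOf (commutator Fi24) ≤ centralizer ({t} : Set Spor.Fi24') := by
      intro y hy
      obtain ⟨-, h3, h4⟩ := mem_C.1 (show (y : Fi24) ∈ Cab a b from hy)
      rw [mem_centralizer_singleton_iff]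
      apply Subtype.ext
      change (y : Fi24) * (t : Fi24) = t * y
      rw [ht', ← mul_assoc, h3, mul_assoc, h4, mul_assoc]
    obtain ⟨-, -, -, -, h5⟩ := H999.IFB.IF.E2' h hna htA h2
    have h6 := (h5 _ hle).1
    have h7 : A.relIndex ((Cab a b).subgroupOf (commutator Fi24)) =
        (A.map (commutator Fi24).subtype).relIndex (Cab a b) := by
      have h8 := relIndex_subgroupOf (H := A.map (commutator Fi24).subtype) (K := Cab a b) (L := commutator Fi24)
        (Cab_le_M.trans inf_le_left)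
      rw [map_subgroupOf] at h8
      exact h8
    rw [h7] at h6
    have h8 : (centralizer ({t} : Set Spor.Fi24')).index ≤ 9720970056 := by
      have h9 := Nat.le_of_dvd (Nat.pos_of_ne_zero index_ne_zero_of_finite) (index_dvd_of_le hle)
      have h10 := ((Cab a b).subgroupOf (commutator Fi24)).card_mul_index
      have h11 : Nat.card ((Cab a b).subgroupOf (commutator Fi24)) = 129123503308800 := by
        rw [Nat.card_congr (subgroupOfEquivOfLe (Cab_le_M.trans inf_le_left)).toEquiv]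
        exact card_Cab ha hb hne hab
      rw [h11, card_commutator] at h10
      omega
    by_contra hcon
    push Not at hcon
    have h9 := Nat.pow_le_pow_left hcon 5
    norm_num at h9
    omega

end Cfsg.Agent.H672.IF.Fi24A
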