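import Cfsg.Agent.ThType.NormE

/-!
# S5719, `Th`: orbits of `A₉` on the spin module (helper672)

* `card_stab_le` : the stabilizer of a nonzero vector has order at most 1512;
* `exists_pair` : noncommuting elements of the hyperplane orthogonal to a vector.
-/

set_option autoImplicit false
set_option maxRecDepth 100000

namespace Cfsg.Agent.H672.IF.ThOrb

open Equiv Cfsg.Agent.ThType.SpinData Cfsg.Agent.ThType.SpinFacts Cfsg.Agent.ThType.SpinRep
  Cfsg.Agent.ThType.ElemE

/-- the nonsingular masks are in the orbit of 17 -/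
theorem reach_ns : ∀ m < 256, qN m ≠ 0 →
    memb m (orb [ap 0, ap 1, ap 2, ap 3, ap 4, ap 5, ap 6] 5 [17]) = true := by
  decide +kernel

section rep

variable {ρ : alternatingGroup (Fin 9) →* Matrix (Fin 8) (Fin 8) (ZMod 2)} (hρ : ∀ k, ρ (cyc k) = X k)
include hρ

/-- `A₉` is transitive on the nonsingular vectors -/
theorem trans_ns (v : V) (h0 : q0 v ≠ 0) : ∃ g, (ρ g).mulVec (vec 17) = v := by
  have hm := msk_lt v
  have h1 := reach_ns (msk v) hm fun h => h0 (by
    have := (q0_vec _ hm).2 h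
    rwa [vec_msk] at this)
  rw [memb_iff] at h1
  have h2 := orb_prop (fun m => m < 256 ∧ ∃ g, (ρ g).mulVec (vec 17) = vec m)
    [ap 0, ap 1, ap 2, ap 3, ap 4, ap 5, ap 6] (by
      intro f hf
      have : ∃ k : Fin 7, f = ap k := by
        simp only [List.mem_cons, List.not_mem_nil, or_false] at hf
        rcases hf with h | h | h | h | h | h | h <;> exact ⟨_, h⟩
      obtain ⟨k, rfl⟩ := this
      rintro m ⟨hm, g, hg⟩
      refine ⟨ap_lt _ _, cyc k * g, ?_⟩
      rw [rho_mul, hg, hρ, vec_ap k m hm]) 5 [17] (by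
      intro x hx
      rw [List.mem_singleton] at hx
      subst hx
      exact ⟨by norm_num, 1, rho_one _⟩) _ h1
  obtain ⟨_, g, hg⟩ := h2
  exact ⟨g, by rw [hg, vec_msk]⟩

omit hρ in
/-- the action of `A₉` on the spin module -/
abbrev act (ρ : alternatingGroup (Fin 9) →* Matrix (Fin 8) (Fin 8) (ZMod 2)) : MulAction (alternatingGroup (Fin 9)) V where
  smul g v := (ρ g).mulVec v
  one_smul v := rho_one v
  mul_smul g h v := rho_mul g h v

omit hρ in
theorem card_sing : Nat.card {v : V // q0 v = 0 ∧ v ≠ 0} = 135 := by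
  rw [Nat.card_eq_fintype_card]
  decide +kernel

omit hρ in
theorem card_nsing : Nat.card {v : V // q0 v ≠ 0} = 120 := by
  rw [Nat.card_eq_fintype_card]
  decide +kernel

theorem card_orbit_ge {w : V} (hw : w ≠ 0) :
    letI := act ρ
    120 ≤ Nat.card (MulAction.orbit (alternatingGroup (Fin 9)) w) := by
  let _ := act ρ
  by_cases h0 : q0 w = 0
  · have h1 : Nat.card {v : V // q0 v = 0 ∧ v ≠ 0} ≤ Nat.card (MulAction.orbit (alternatingGroup (Fin 9)) w) := by
      refine Nat.card_le_card_of_injective (fun v => ⟨v.1, ?_⟩) ?_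
      · obtain ⟨g, hg⟩ := trans_vec' hρ w v.1 h0 hw v.2.1 v.2.2
        exact ⟨g, hg⟩
      · intro a b hab
        exact Subtype.ext (congrArg (fun x : MulAction.orbit (alternatingGroup (Fin 9)) w => (x : V)) hab)
    rw [card_sing] at h1
    omega
  · have h1 : Nat.card {v : V // q0 v ≠ 0} ≤ Nat.card (MulAction.orbit (alternatingGroup (Fin 9)) w) := by
      refine Nat.card_le_card_of_injective (fun v => ⟨v.1, ?_⟩) ?_
      · obtain ⟨g, hg⟩ := trans_ns hρ w h0
        obtain ⟨h, hh⟩ := trans_ns hρ v.1 v.2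
        refine ⟨h * g⁻¹, ?_⟩
        change (ρ (h * g⁻¹)).mulVec w = v.1
        rw [rho_mul, ← hg, rho_inv_rho, hh]
      · intro a b hab
        exact Subtype.ext (congrArg (fun x : MulAction.orbit (alternatingGroup (Fin 9)) w => (x : V)) hab)
    rwa [card_nsing] at h1

/-- **Subgroups of `A₉` leaving a small set of vectors invariant.** -/
theorem card_le {R : Subgroup (alternatingGroup (Fin 9))} {W : Set V}
    (hR : ∀ g ∈ R, ∀ w ∈ W, (ρ g).mulVec w ∈ W) (h0 : (0 : V) ∈ W) {w : V} (hwW : w ∈ W) (hw : w ≠ 0) :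
    120 * Nat.card R ≤ 181440 * (Nat.card W - 1) := by
  let _ := act ρ
  have h1 : Nat.card (MulAction.orbit (alternatingGroup (Fin 9)) w) *
      Nat.card (MulAction.stabilizer (alternatingGroup (Fin 9)) w) = 181440 := by
    rw [← card_A9, ← Nat.card_prod]
    exact Nat.card_congr (MulAction.orbitProdStabilizerEquivGroup (alternatingGroup (Fin 9)) w)
  have h2 := card_orbit_ge hρ hw
  have h3 : Nat.card (MulAction.orbit R w) * Nat.card (MulAction.stabilizer R w) = Nat.card R := by
    rw [← Nat.card_prod]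
    exact Nat.card_congr (MulAction.orbitProdStabilizerEquivGroup R w)
  have h4 : Nat.card (MulAction.orbit R w) ≤ Nat.card W - 1 := by
    have h5 : MulAction.orbit R w ⊆ W \ {0} := by
      rintro _ ⟨g, rfl⟩
      refine ⟨hR g.1 g.2 w hwW, ?_⟩
      exact rho_ne_zero g.1 hw
    have h6 : (W \ {0}).ncard ≤ W.ncard - 1 := by rw [Set.ncard_sdiff_singleton_of_mem h0]
    exact (Set.ncard_le_ncard h5 (Set.toFinite _)).trans h6
  have h5 : Nat.card (MulAction.stabilizer R w) ≤ Nat.card (MulAction.stabilizer (alternatingGroup (Fin 9)) w) := by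
    refine Nat.card_le_card_of_injective (fun g => ⟨g.1.1, g.2⟩) ?_
    intro a b hab
    apply Subtype.ext
    apply Subtype.ext
    exact congrArg (fun x : MulAction.stabilizer (alternatingGroup (Fin 9)) w => (x : alternatingGroup (Fin 9))) hab
  calc 120 * Nat.card R = Nat.card (MulAction.orbit R w) * (120 * Nat.card (MulAction.stabilizer R w)) := by
        rw [← h3]; ring
    _ ≤ (Nat.card W - 1) * (Nat.card (MulAction.orbit (alternatingGroup (Fin 9)) w) *
        Nat.card (MulAction.stabilizer (alternatingGroup (Fin 9)) w)) :=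
        Nat.mul_le_mul h4 (Nat.mul_le_mul h2 h5)
    _ = 181440 * (Nat.card W - 1) := by rw [h1, mul_comm]

omit hρ in
theorem pair_masks : ∀ m < 256, ∃ i < 64, ∃ j < 64, b0 (vec i) (vec m) = 0 ∧ b0 (vec j) (vec m) = 0 ∧
    b0 (vec i) (vec j) = 1 := by
  decide +kernel

omit hρ in
/-- noncommuting elements of the hyperplane -/
theorem exists_pair (v : V) : ∃ a b : V, b0 a v = 0 ∧ b0 b v = 0 ∧ b0 a b = 1 := by
  obtain ⟨i, -, j, -, h1, h2, h3⟩ := pair_masks (msk v) (msk_lt v)
  rw [vec_msk] at h1 h2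
  exact ⟨vec i, vec j, h1, h2, h3⟩

end rep

end Cfsg.Agent.H672.IF.ThOrb
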